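import Mathlib
import Cfsg.Agent.H668.Five.Rows

/-!
# Tools for the rows of S4874 (helper763)

* `NN.of_odd` : two elements of odd order commuting with `x` whose product has even order;
* `good_of` : `Good` from elements.
-/

set_option autoImplicit false

namespace Cfsg.Agent.H763.Five

open Cfsg Cfsg.Agent.H668.Five

/-- elements of odd order generate a subgroup of odd order in a group with a normal 2-complement -/
theorem not_compl_of_odd {X : Type*} [Group X] [Finite X] {h k : X} (ho : Odd (orderOf h)) (ko : Odd (orderOf k))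
    (he : 2 ∣ orderOf (h * k)) : ¬ HasNormalPComplement 2 X := by
  intro hX
  obtain ⟨N, hN, hpN, m, hm⟩ := OddOrderLocal.NilpotentQuotient.exists_of_hasNormalPComplement hX
  have key : ∀ g : X, Odd (orderOf g) → g ∈ N := by
    intro g hg
    have h1 : g ^ (2 ^ m) ∈ N := by
      rw [← hm]
      exact Subgroup.pow_index_mem N g
    have h2 : Nat.Coprime (2 ^ m) (orderOf g) := Nat.Coprime.pow_left m (Nat.coprime_two_left.2 hg)
    have h3 : g ∈ Subgroup.zpowers (g ^ (2 ^ m)) := by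
      obtain ⟨n, hn⟩ := exists_pow_eq_self_of_coprime h2
      exact Subgroup.mem_zpowers_iff.2 ⟨(n : ℤ), by rw [zpow_natCast]; exact hn⟩
    exact (Subgroup.zpowers_le.2 h1) h3
  have h1 : h * k ∈ N := N.mul_mem (key h ho) (key k ko)
  apply hpN
  refine he.trans ?_
  have h2 := orderOf_dvd_natCard (⟨h * k, h1⟩ : N)
  rwa [Subgroup.orderOf_mk] at h2

/-- **`NN x` from two elements of odd order whose product has even order.** -/
theorem NN.of_odd {G : Type*} [Group G] [Finite G] {x h k : G} (hx : h * x = x * h) (kx : k * x = x * k)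
    (ho : Odd (orderOf h)) (ko : Odd (orderOf k)) (he : 2 ∣ orderOf (h * k)) : NN x := by
  refine not_compl_of_odd (h := ⟨h, Subgroup.mem_centralizer_singleton_iff.2 hx⟩)
    (k := ⟨k, Subgroup.mem_centralizer_singleton_iff.2 kx⟩) ?_ ?_ ?_
  · rwa [Subgroup.orderOf_mk]
  · rwa [Subgroup.orderOf_mk]
  · rw [← Subgroup.orderOf_coe]
    exact he

theorem orderOf_eight {G : Type*} [Group G] {w : G} (h : w ^ 8 = 1) (h4 : w ^ 4 ≠ 1) : orderOf w = 8 := by
  have : Fact (Nat.Prime 2) := ⟨Nat.prime_two⟩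
  exact orderOf_eq_prime_pow (p := 2) (n := 2) (by norm_num; exact h4) (by norm_num; exact h)

theorem orderOf_four {G : Type*} [Group G] {w : G} (h : w ^ 4 = 1) (h2 : w ^ 2 ≠ 1) : orderOf w = 4 := by
  have : Fact (Nat.Prime 2) := ⟨Nat.prime_two⟩
  exact orderOf_eq_prime_pow (p := 2) (n := 1) (by norm_num; exact h2) (by norm_num; exact h)

theorem orderOf_two' {G : Type*} [Group G] {w : G} (h : w ^ 2 = 1) (h1 : w ≠ 1) : orderOf w = 2 := by
  have : Fact (Nat.Prime 2) := ⟨Nat.prime_two⟩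
  exact orderOf_eq_prime h h1

theorem odd_of_pow {G : Type*} [Group G] {w : G} {n : ℕ} (hn : Odd n) (h : w ^ n = 1) : Odd (orderOf w) :=
  hn.of_dvd_nat (orderOf_dvd_of_pow_eq_one h)

theorem two_dvd_of {G : Type*} [Group G] {w : G} {n : ℕ} (h : w ^ (2 * n) = 1) (h1 : w ^ n ≠ 1) : 2 ∣ orderOf w := by
  by_contra hc
  apply h1
  rw [← orderOf_dvd_iff_pow_eq_one]
  have h2 := orderOf_dvd_of_pow_eq_one h
  exact (Nat.Coprime.symm ((Nat.Prime.coprime_iff_not_dvd Nat.prime_two).2 hc)).dvd_of_dvd_mul_left h2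

/-- `Good` from an involution `z`, elements `h`, `k` of odd order commuting with `z`, and an element of order 8. -/
theorem good_of {G : Type*} [Group G] [Finite G] {z h k w : G} {a b n : ℕ} (hz : z ^ 2 = 1) (hz1 : z ≠ 1)
    (hx : h * z = z * h) (kx : k * z = z * k) (ha : Odd a) (hha : h ^ a = 1) (hb : Odd b) (hkb : k ^ b = 1)
    (hn : (h * k) ^ (2 * n) = 1) (hn1 : (h * k) ^ n ≠ 1) (hw : w ^ 8 = 1) (hw4 : w ^ 4 ≠ 1) : Good G :=
  Or.inr ⟨z, w, orderOf_two' hz hz1, NN.of_odd hx kx (odd_of_pow ha hha) (odd_of_pow hb hkb) (two_dvd_of hn hn1),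
    orderOf_eight hw hw4⟩

end Cfsg.Agent.H763.Five
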