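import Cfsg.Agent.H763.Five.Base
import Cfsg.Agent.H153.SixMathieu
import Cfsg.Agent.H921.SporCo

/-!
# `Good` for `M22`, `M23`, `M24`, `McL`, `HS`, `Co3`, `Co2`, `Co1` (helper763)
-/

set_option autoImplicit false

namespace Cfsg.Agent.H763.Five.Mathieu

open Cfsg Cfsg.Agent.H668.Five Cfsg.Agent.H763.Five
open Cfsg.Agent.Golay.Orbit Cfsg.Agent.H153.SixMathieu
open scoped Pointwise

/-- an element of order 8 -/
def wt : List ℕ := [1, 262144, 1024, 8192, 64, 2048, 16, 2097152, 8, 256, 32, 4, 524288, 4096, 1048576, 131072, 128,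
  65536, 4194304, 16384, 512, 2, 32768, 8388608]
/-- an involution -/
def zt : List ℕ := [1, 8, 32, 2, 8192, 4, 1048576, 128, 2048, 512, 524288, 256, 4194304, 16, 16384, 32768, 262144,
  131072, 65536, 1024, 64, 2097152, 4096, 8388608]
/-- an element of order 3 commuting with the involution -/
def ht : List ℕ := [1, 2, 4096, 8, 2048, 4194304, 64, 131072, 1024, 16384, 8192, 524288, 65536, 256, 2097152, 128, 4,
  32768, 32, 16, 1048576, 512, 262144, 8388608]
/-- an element of order 3 commuting with the involution -/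
def kt : List ℕ := [1, 4, 4096, 32, 64, 4194304, 524288, 32768, 256, 2097152, 8192, 2048, 2, 1048576, 512, 131072,
  65536, 128, 262144, 16, 1024, 16384, 8, 8388608]

theorem good_M22 : Good Spor.M22 := by
  obtain ⟨w, hw⟩ := exists_rep wt (by decide +kernel)
  obtain ⟨z, hz⟩ := exists_rep zt (by decide +kernel)
  obtain ⟨h, hh⟩ := exists_rep ht (by decide +kernel)
  obtain ⟨k, hk⟩ := exists_rep kt (by decide +kernel)
  have mw : w ∈ Spor.M22 := ⟨⟨hw.mem_M24 (by decide +kernel), by
    show w none = none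
    rw [Rep.apply hw]; decide +kernel⟩, by
    show w (some 0) = some 0
    rw [Rep.apply hw]; decide +kernel⟩
  have mz : z ∈ Spor.M22 := ⟨⟨hz.mem_M24 (by decide +kernel), by
    show z none = none
    rw [Rep.apply hz]; decide +kernel⟩, by
    show z (some 0) = some 0
    rw [Rep.apply hz]; decide +kernel⟩
  have mh : h ∈ Spor.M22 := ⟨⟨hh.mem_M24 (by decide +kernel), by
    show h none = none
    rw [Rep.apply hh]; decide +kernel⟩, by
    show h (some 0) = some 0
    rw [Rep.apply hh]; decide +kernel⟩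
  have mk : k ∈ Spor.M22 := ⟨⟨hk.mem_M24 (by decide +kernel), by
    show k none = none
    rw [Rep.apply hk]; decide +kernel⟩, by
    show k (some 0) = some 0
    rw [Rep.apply hk]; decide +kernel⟩
  refine good_of (z := (⟨z, mz⟩ : Spor.M22)) (h := ⟨h, mh⟩) (k := ⟨k, mk⟩) (w := ⟨w, mw⟩) (a := 3) (b := 3) (n := 1)
    (Subtype.ext ?_) (fun e => ?_) (Subtype.ext ?_) (Subtype.ext ?_) (by decide) (Subtype.ext ?_) (by decide)
    (Subtype.ext ?_) (Subtype.ext ?_) (fun e => ?_) (Subtype.ext ?_) (fun e => ?_)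
  · show z ^ 2 = 1
    have e : ∀ q, tf zt (tf zt q) = q := by decide +kernel
    ext1 q
    rw [pow_two, Equiv.Perm.mul_apply, Rep.apply hz, Rep.apply hz, e, Equiv.Perm.one_apply]
  · have h1 : z = 1 := congrArg Subtype.val e
    have h2 : z (some 1) = some 1 := by rw [h1, Equiv.Perm.one_apply]
    rw [Rep.apply hz] at h2
    revert h2
    decide +kernel
  · show h * z = z * h
    have e : ∀ q, tf ht (tf zt q) = tf zt (tf ht q) := by decide +kernel
    ext1 q
    rw [Equiv.Perm.mul_apply, Equiv.Perm.mul_apply, Rep.apply hz, Rep.apply hh, Rep.apply hh, Rep.apply hz, e]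
  · show k * z = z * k
    have e : ∀ q, tf kt (tf zt q) = tf zt (tf kt q) := by decide +kernel
    ext1 q
    rw [Equiv.Perm.mul_apply, Equiv.Perm.mul_apply, Rep.apply hz, Rep.apply hk, Rep.apply hk, Rep.apply hz, e]
  · show h ^ 3 = 1
    have e : ∀ q, tf ht (tf ht (tf ht q)) = q := by decide +kernel
    ext1 q
    rw [pow_succ, pow_two, Equiv.Perm.mul_apply, Equiv.Perm.mul_apply, Rep.apply hh, Rep.apply hh, Rep.apply hh, e,
      Equiv.Perm.one_apply]
  · show k ^ 3 = 1
    have e : ∀ q, tf kt (tf kt (tf kt q)) = q := by decide +kernel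
    ext1 q
    rw [pow_succ, pow_two, Equiv.Perm.mul_apply, Equiv.Perm.mul_apply, Rep.apply hk, Rep.apply hk, Rep.apply hk, e,
      Equiv.Perm.one_apply]
  · show (h * k) ^ 2 = 1
    have e : ∀ q, tf ht (tf kt (tf ht (tf kt q))) = q := by decide +kernel
    ext1 q
    rw [pow_two, Equiv.Perm.mul_apply, Equiv.Perm.mul_apply, Equiv.Perm.mul_apply, Rep.apply hk, Rep.apply hh,
      Rep.apply hk, Rep.apply hh, e, Equiv.Perm.one_apply]
  · have h1 : (h * k) ^ 1 = 1 := congrArg Subtype.val e
    have h2 : (h * k) (some 1) = some 1 := by rw [← pow_one (h * k), h1, Equiv.Perm.one_apply]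
    rw [Equiv.Perm.mul_apply, Rep.apply hk, Rep.apply hh] at h2
    revert h2
    decide +kernel
  · show w ^ 8 = 1
    have e : ∀ q, tf wt (tf wt (tf wt (tf wt (tf wt (tf wt (tf wt (tf wt q))))))) = q := by decide +kernel
    ext1 q
    have e1 : w ^ 8 = w * (w * (w * (w * (w * (w * (w * w)))))) := by
      simp only [pow_succ, pow_zero, one_mul, mul_assoc]
    rw [e1]
    simp only [Equiv.Perm.mul_apply, Rep.apply hw]
    rw [e, Equiv.Perm.one_apply]
  · have h1 : w ^ 4 = 1 := congrArg Subtype.val e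
    have e1 : w ^ 4 = w * (w * (w * w)) := by simp only [pow_succ, pow_zero, one_mul, mul_assoc]
    have h2 : (w * (w * (w * w))) (some 1) = some 1 := by rw [← e1, h1, Equiv.Perm.one_apply]
    simp only [Equiv.Perm.mul_apply, Rep.apply hw] at h2
    revert h2
    decide +kernel

theorem finite_M22 : Finite Spor.M22 := inferInstance

theorem good_M23 : Good Spor.M23 :=
  good_M22.map (Subgroup.inclusion H921.Spor.Co.M22_le_M23) (Subgroup.inclusion_injective _)

theorem good_M24 : Good M24 :=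
  good_M22.map (Subgroup.inclusion H921.Spor.Co.M22_le) (Subgroup.inclusion_injective _)

universe u

variable {S : Type u} [Group S] [Finite S]

theorem good_m22 (h : Spor.IsoM22 S) : Good S := by
  obtain ⟨e⟩ := h
  exact good_M22.map e.symm.toMonoidHom e.symm.injective

theorem good_m23 (h : Spor.IsoM23 S) : Good S := by
  obtain ⟨e⟩ := h
  exact good_M23.map e.symm.toMonoidHom e.symm.injective

theorem good_m24 (h : Spor.IsoM24 S) : Good S := by
  obtain ⟨e⟩ := h
  exact good_M24.map e.symm.toMonoidHom e.symm.injective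

theorem good_mcl (h : Spor.IsoMcL S) : Good S := by
  obtain ⟨e⟩ := h
  obtain ⟨f, hf⟩ := H921.Spor.Co.exists_McL
  exact good_M22.map (e.symm.toMonoidHom.comp f) (e.symm.injective.comp hf)

theorem good_hs (h : Spor.IsoHS S) : Good S := by
  obtain ⟨e⟩ := h
  obtain ⟨f, hf⟩ := H921.Spor.Co.exists_HS
  exact good_M22.map (e.symm.toMonoidHom.comp f) (e.symm.injective.comp hf)

theorem good_co3 (h : Spor.IsoCo3 S) : Good S := by
  obtain ⟨e⟩ := h
  obtain ⟨f, hf⟩ := H921.Spor.Co.exists_Co3
  exact good_M23.map (e.symm.toMonoidHom.comp f) (e.symm.injective.comp hf)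

theorem good_co2 (h : Spor.IsoCo2 S) : Good S := by
  obtain ⟨e⟩ := h
  obtain ⟨f, hf⟩ := H921.Spor.Co.exists_Co2
  exact good_M22.map (e.symm.toMonoidHom.comp f) (e.symm.injective.comp hf)

theorem good_co1 (h : Spor.IsoCo1 S) : Good S := by
  obtain ⟨e⟩ := h
  obtain ⟨f, hf⟩ := H921.Spor.Co.exists_Co1
  exact good_M24.map (e.symm.toMonoidHom.comp f) (e.symm.injective.comp hf)

theorem row_m22 (h : Spor.IsoM22 S) : Row S := Or.inl (good_m22 h)
theorem row_m23 (h : Spor.IsoM23 S) : Row S := Or.inl (good_m23 h)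
theorem row_m24 (h : Spor.IsoM24 S) : Row S := Or.inl (good_m24 h)
theorem row_mcl (h : Spor.IsoMcL S) : Row S := Or.inl (good_mcl h)
theorem row_hs (h : Spor.IsoHS S) : Row S := Or.inl (good_hs h)
theorem row_co3 (h : Spor.IsoCo3 S) : Row S := Or.inl (good_co3 h)
theorem row_co2 (h : Spor.IsoCo2 S) : Row S := Or.inl (good_co2 h)
theorem row_co1 (h : Spor.IsoCo1 S) : Row S := Or.inl (good_co1 h)

end Cfsg.Agent.H763.Five.Mathieu
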